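import Cfsg.Agent.H540.E8C.L13.Iface
import Cfsg.Agent.H296.L7.Lin

/-!
# S5919, the row `PSL₂(13)`, task R1 (helper530)

`r1 : R1`.
-/

set_option autoImplicit false

namespace Cfsg.Agent.H530.L13

open Cfsg.Agent.H540.E8C.L13 Module Cfsg.Agent.H296.L7

/-! ### the group -/

theorem tt_uu : ∀ a : ZMod 13, tt * uu a = uu (-a) * tt := by decide +kernel
theorem eta_uu : ∀ a : ZMod 13, eta * uu a = uu (9 * a) * eta := by decide +kernel
theorem uu_mul : ∀ a b : ZMod 13, uu a * uu b = uu (a + b) := by decide +kernel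
theorem uu_zero : uu 0 = 1 := by decide +kernel
theorem tt_ww : tt * ww = ww * (tt * (tt * tt)) := by decide +kernel
theorem ww_tt : ww * tt = tt * (tt * (tt * ww)) := by decide +kernel
theorem eta_ww : eta * ww = ww * (eta * eta) := by decide +kernel
theorem ww_ww : ww * ww = -1 := by decide +kernel
theorem eta3 : eta * (eta * eta) = 1 := by decide +kernel
theorem tt_eta : tt * eta = eta * tt := by decide +kernel

/-- the tables -/
def tI : ZMod 13 → ℕ := fun a => (![0, 0, 3, 0, 2, 3, 3, 1, 1, 0, 2, 1, 2] : Fin 13 → ℕ) a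
def tJ : ZMod 13 → ℕ := fun a => (![0, 0, 2, 2, 1, 0, 1, 1, 0, 1, 2, 2, 0] : Fin 13 → ℕ) a
def tB : ZMod 13 → ZMod 13 := fun a => -a⁻¹

theorem tab : ∀ a : ZMod 13, a ≠ 0 →
    ww * (uu a * ww) = -1 * (uu (tB a) * (tt ^ tI a * (eta ^ tJ a * (ww * uu (tB a))))) := by decide +kernel

theorem tab2 : ∀ a : ZMod 13, a ≠ 0 →
    ww * (uu a * ww) = -1 * (uu (tB a) * (ww * (tt ^ (4 - tI a) * (eta ^ (3 - tJ a) * uu (tB a))))) := by
  decide +kernel

theorem tB_inv : ∀ a : ZMod 13, tB (tB a) = a := by decide +kernel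

/-! ### the representation -/

variable {V : Type} [AddCommGroup V] [Module (ZMod 3) V] (ρ : Representation (ZMod 3) Q V)

theorem rmul (g g' : Q) (v : V) : ρ (g * g') v = ρ g (ρ g' v) := by
  rw [map_mul]; rfl

theorem rone (v : V) : ρ 1 v = v := by
  rw [map_one]; rfl

theorem m3 {x y : V} (h : (1 : ZMod 3) • x = (1 : ZMod 3) • y) : x = y := by
  rwa [one_smul, one_smul] at h

/-- `e_U` -/
def ss : V →ₗ[ZMod 3] V := ∑ a : ZMod 13, ρ (uu a)

theorem ss_apply (v : V) : ss ρ v = ∑ a : ZMod 13, ρ (uu a) v := by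
  rw [ss, LinearMap.sum_apply]

theorem om_apply (v : V) : om ρ v = ss ρ (ρ ww v) := by
  rw [om, ss_apply, LinearMap.sum_apply]
  rfl

theorem uu_ss (b : ZMod 13) (v : V) : ρ (uu b) (ss ρ v) = ss ρ v := by
  rw [ss_apply, map_sum]
  refine Fintype.sum_equiv (Equiv.addLeft b) _ _ fun a => ?_
  rw [← rmul, uu_mul]
  rfl

theorem ss_uu (b : ZMod 13) (v : V) : ss ρ (ρ (uu b) v) = ss ρ v := by
  rw [ss_apply, ss_apply]
  refine Fintype.sum_equiv (Equiv.addRight b) _ _ fun a => ?_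
  rw [← rmul, uu_mul]
  rfl

theorem ss_fix {v : V} (hv : ∀ a, ρ (uu a) v = v) : ss ρ v = v := by
  rw [ss_apply, Finset.sum_congr rfl fun a _ => hv a, Finset.sum_const, Finset.card_univ, ZMod.card,
    ← Nat.cast_smul_eq_nsmul (ZMod 3)]
  have : ((13 : ℕ) : ZMod 3) = 1 := by decide
  rw [this, one_smul]

theorem tt_ss (v : V) : ρ tt (ss ρ v) = ss ρ (ρ tt v) := by
  rw [ss_apply, ss_apply, map_sum]
  refine Fintype.sum_equiv (Equiv.neg _) _ _ fun a => ?_
  rw [← rmul, tt_uu, rmul]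
  rfl

theorem eta_ss (v : V) : ρ eta (ss ρ v) = ss ρ (ρ eta v) := by
  rw [ss_apply, ss_apply, map_sum]
  have h9 : (9 : ZMod 13) * 3 = 1 := by decide
  refine Fintype.sum_equiv ⟨fun a => 9 * a, fun a => 3 * a, fun a => ?_, fun a => ?_⟩ _ _ fun a => ?_
  · show 3 * (9 * a) = a
    rw [← mul_assoc, mul_comm 3, h9, one_mul]
  · show 9 * (3 * a) = a
    rw [← mul_assoc, h9, one_mul]
  · show ρ eta (ρ (uu a) v) = ρ (uu (9 * a)) (ρ eta v)
    rw [← rmul, eta_uu, rmul]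

theorem eee (v : V) : ρ eta (ρ eta (ρ eta v)) = v := by
  rw [← rmul, ← rmul, mul_assoc, eta3, rone]

theorem eta_om (v : V) : ρ eta (om ρ v) = om ρ (ρ eta (ρ eta v)) := by
  rw [om_apply, eta_ss, ← rmul, eta_ww, rmul, rmul, om_apply]

theorem om_eta (v : V) : om ρ (ρ eta v) = ρ eta (ρ eta (om ρ v)) := by
  rw [eta_om, eta_om, eee, ]

/-- the space `W` -/
def WW : Submodule (ZMod 3) V where
  carrier := {v | (∀ a, ρ (uu a) v = v) ∧ ρ tt v = v}
  add_mem' := fun ha hb => ⟨fun a => by rw [map_add, ha.1 a, hb.1 a], by rw [map_add, ha.2, hb.2]⟩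
  zero_mem' := ⟨fun a => map_zero _, map_zero _⟩
  smul_mem' := fun c v hv => ⟨fun a => by rw [map_smul, hv.1 a], by rw [map_smul, hv.2]⟩

variable {ρ}

theorem mem_WW {v : V} : v ∈ WW ρ ↔ (∀ a, ρ (uu a) v = v) ∧ ρ tt v = v := Iff.rfl

theorem tt_pow {v : V} (hv : ρ tt v = v) (i : ℕ) : ρ (tt ^ i) v = v := by
  induction i with
  | zero => rw [pow_zero, rone]
  | succ i ih => rw [pow_succ, rmul, hv, ih]

theorem eta_mem {v : V} (hv : v ∈ WW ρ) : ρ eta v ∈ WW ρ := by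
  refine ⟨fun a => ?_, ?_⟩
  · have h : uu a * eta = eta * uu (3 * a) := by revert a; decide +kernel
    rw [← rmul, h, rmul, hv.1]
  · rw [← rmul, tt_eta, rmul, hv.2]

theorem om_mem {v : V} (hv : v ∈ WW ρ) : om ρ v ∈ WW ρ := by
  refine ⟨fun a => ?_, ?_⟩
  · rw [om_apply, uu_ss]
  · rw [om_apply, tt_ss, ← rmul, tt_ww, rmul, rmul, rmul, hv.2, hv.2, hv.2]

/-- `1 + η + η²` -/
theorem sg_apply (v : V) : sg ρ v = om ρ v + v + ρ eta v + ρ eta (ρ eta v) := by
  rw [← rmul]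
  rfl

theorem sg_mem {v : V} (hv : v ∈ WW ρ) : sg ρ v ∈ WW ρ := by
  rw [sg_apply]
  exact (WW ρ).add_mem ((WW ρ).add_mem ((WW ρ).add_mem (om_mem hv) hv) (eta_mem hv)) (eta_mem (eta_mem hv))

theorem om_om (h1 : ρ (-1) = 1) {v : V} (hv : v ∈ WW ρ) :
    om ρ (om ρ v) = v + (om ρ v + ρ eta (om ρ v) + ρ eta (ρ eta (om ρ v))) := by
  have hom := om_mem hv
  have h0 : ss ρ (ρ ww (ρ (uu 0) (ρ ww v))) = v := by
    rw [uu_zero, rone, ← rmul, ww_ww, h1]
    exact ss_fix ρ hv.1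
  have key : ∀ a : ZMod 13, a ≠ 0 → ss ρ (ρ ww (ρ (uu a) (ρ ww v))) = ρ (eta ^ tJ a) (om ρ v) := by
    intro a ha
    have e1 : ∀ (i : ℕ) (x : V), ρ (tt ^ i) (ss ρ x) = ss ρ (ρ (tt ^ i) x) := by
      intro i x
      induction i generalizing x with
      | zero => rw [pow_zero, rone, rone]
      | succ i ih => rw [pow_succ, rmul, tt_ss, ih, rmul]
    have e2 : ∀ (i : ℕ) (x : V), ρ (eta ^ i) (ss ρ x) = ss ρ (ρ (eta ^ i) x) := by
      intro i x
      induction i generalizing x with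
      | zero => rw [pow_zero, rone, rone]
      | succ i ih => rw [pow_succ, rmul, eta_ss, ih, rmul]
    have e3 : ∀ (i : ℕ) {x : V}, x ∈ WW ρ → ρ (eta ^ i) x ∈ WW ρ := by
      intro i
      induction i with
      | zero => intro x hx; rw [pow_zero, rone]; exact hx
      | succ i ih => intro x hx; rw [pow_succ, rmul]; exact ih (eta_mem hx)
    rw [← rmul, ← rmul, mul_assoc, tab a ha, rmul, h1]
    change ss ρ (ρ (uu (tB a) * (tt ^ tI a * (eta ^ tJ a * (ww * uu (tB a))))) v) = _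
    rw [rmul, ss_uu, rmul, rmul, rmul, hv.1, ← e1, ← e2, ← om_apply]
    exact tt_pow (e3 _ hom).2 _
  have hL : om ρ (om ρ v) = ∑ a : ZMod 13, ss ρ (ρ ww (ρ (uu a) (ρ ww v))) := by
    rw [om_apply, om_apply, ss_apply ρ (ρ ww v), map_sum, map_sum]
  rw [hL, show (Finset.univ : Finset (ZMod 13)) = {0, 1, 2, 3, 4, 5, 6, 7, 8, 9, 10, 11, 12} by decide +kernel]
  iterate 12 rw [Finset.sum_insert (by decide +kernel)]
  rw [Finset.sum_singleton, h0, key 1 (by decide), key 2 (by decide), key 3 (by decide), key 4 (by decide),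
    key 5 (by decide), key 6 (by decide), key 7 (by decide), key 8 (by decide), key 9 (by decide), key 10 (by decide),
    key 11 (by decide), key 12 (by decide)]
  have p0 : ∀ x : V, ρ (eta ^ 0) x = x := fun x => by rw [pow_zero, rone]
  have p1 : ∀ x : V, ρ (eta ^ 1) x = ρ eta x := fun x => by rw [pow_one]
  have p2 : ∀ x : V, ρ (eta ^ 2) x = ρ eta (ρ eta x) := fun x => by rw [pow_two, rmul]
  have j : tJ 1 = 0 ∧ tJ 2 = 2 ∧ tJ 3 = 2 ∧ tJ 4 = 1 ∧ tJ 5 = 0 ∧ tJ 6 = 1 ∧ tJ 7 = 1 ∧ tJ 8 = 0 ∧ tJ 9 = 1 ∧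
      tJ 10 = 2 ∧ tJ 11 = 2 ∧ tJ 12 = 0 := by decide +kernel
  obtain ⟨j1, j2, j3, j4, j5, j6, j7, j8, j9, j10, j11, j12⟩ := j
  rw [j1, j2, j3, j4, j5, j6, j7, j8, j9, j10, j11, j12]
  simp only [p0, p1, p2]
  exact m3 (by match_scalars <;> decide)

theorem sg_sg (h1 : ρ (-1) = 1) {v : V} (hv : v ∈ WW ρ) : sg ρ (sg ρ v) = v := by
  rw [sg_apply (sg ρ v), sg_apply v]
  simp only [map_add, om_om h1 hv, om_eta, eee]
  exact m3 (by match_scalars <;> decide)

/-- `η - η²` -/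
def dd (ρ : Representation (ZMod 3) Q V) : V →ₗ[ZMod 3] V := ρ eta - ρ (eta * eta)

theorem dd_apply (v : V) : dd ρ v = ρ eta v - ρ eta (ρ eta v) := by
  rw [← rmul]
  rfl

theorem dd_mem {v : V} (hv : v ∈ WW ρ) : dd ρ v ∈ WW ρ := by
  rw [dd_apply]
  exact (WW ρ).sub_mem (eta_mem hv) (eta_mem (eta_mem hv))

theorem sg_dd (v : V) : sg ρ (dd ρ v) = - dd ρ (sg ρ v) := by
  rw [sg_apply, dd_apply, dd_apply, sg_apply]
  simp only [map_add, map_sub, om_eta, eee]
  exact m3 (by match_scalars <;> decide)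

theorem ddd (v : V) : dd ρ (dd ρ (dd ρ v)) = 0 := by
  rw [dd_apply (dd ρ (dd ρ v)), dd_apply (dd ρ v), dd_apply v]
  simp only [map_sub, eee]
  exact m3 (by match_scalars <;> decide)

theorem mem_XX {ε : ZMod 3} {v : V} : v ∈ XX ρ ε ↔ v ∈ WW ρ ∧ sg ρ v = ε • v := by
  constructor
  · rintro ⟨h1, h2, h3⟩
    exact ⟨⟨h1, h2⟩, h3⟩
  · rintro ⟨⟨h1, h2⟩, h3⟩
    exact ⟨h1, h2, h3⟩

theorem dd_XX {ε : ZMod 3} {v : V} (hv : v ∈ XX ρ ε) : dd ρ v ∈ XX ρ (-ε) := by
  obtain ⟨h1, h2⟩ := mem_XX.1 hv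
  refine mem_XX.2 ⟨dd_mem h1, ?_⟩
  rw [sg_dd, h2, map_smul, neg_smul]

/-- a vector fixed by the Borel subgroup and by `ω` is invariant -/
theorem fix_all (h1 : ρ (-1) = 1) {v : V} (hv : v ∈ WW ρ) (he : ρ eta v = v) (ho : om ρ v = v) (g : Q) : ρ g v = v := by
  have hpe : ∀ i : ℕ, ρ (eta ^ i) v = v := by
    intro i
    induction i with
    | zero => rw [pow_zero, rone]
    | succ i ih => rw [pow_succ, rmul, he, ih]
  -- `w v = v`
  have hw : ρ ww v = v := by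
    have key : ∀ a : ZMod 13, a ≠ 0 → ρ ww (ρ (uu a) (ρ ww v)) = ρ (uu (tB a)) (ρ ww v) := by
      intro a ha
      rw [← rmul, ← rmul, mul_assoc, tab2 a ha, rmul, h1]
      change ρ (uu (tB a) * (ww * (tt ^ (4 - tI a) * (eta ^ (3 - tJ a) * uu (tB a))))) v = _
      rw [rmul, rmul, rmul, rmul, hv.1, hpe, tt_pow hv.2]
    have h2 : ρ ww (om ρ v) = v + (om ρ v - ρ ww v) := by
      rw [om_apply, ss_apply, map_sum, ← Finset.add_sum_erase _ _ (Finset.mem_univ (0 : ZMod 13)),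
        ← Finset.add_sum_erase _ (fun a => ρ (uu a) (ρ ww v)) (Finset.mem_univ (0 : ZMod 13)), uu_zero, rone,
        add_sub_cancel_left, ← rmul, ww_ww, h1]
      congr 1
      refine Finset.sum_nbij' tB tB ?_ ?_ (fun a _ => tB_inv a) (fun a _ => tB_inv a) fun a ha => key a (Finset.ne_of_mem_erase ha)
      · intro a ha
        refine Finset.mem_erase.2 ⟨?_, Finset.mem_univ _⟩
        exact neg_ne_zero.2 (by
          have : a ≠ 0 := Finset.ne_of_mem_erase ha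
          revert a; decide +kernel)
      · intro a ha
        refine Finset.mem_erase.2 ⟨?_, Finset.mem_univ _⟩
        exact neg_ne_zero.2 (by
          have : a ≠ 0 := Finset.ne_of_mem_erase ha
          revert a; decide +kernel)
    rw [ho] at h2
    have h3 : (2 : ZMod 3) • ρ ww v = (2 : ZMod 3) • v := by
      rw [two_smul, two_smul]
      nth_rewrite 1 [h2]
      abel
    have h4 := congrArg (fun x => (2 : ZMod 3) • x) h3
    simp only [smul_smul] at h4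
    have h5 : (2 : ZMod 3) * 2 = 1 := by decide
    rwa [h5, one_smul, one_smul] at h4
  -- generation
  let H : Subgroup Q :=
    { carrier := {g | ρ g v = v}
      mul_mem' := fun {a b} ha hb => by
        show ρ (a * b) v = v
        rw [rmul, hb, ha]
      one_mem' := rone ρ v
      inv_mem' := fun {a} ha => by
        show ρ a⁻¹ v = v
        have h2 : ρ a v = v := ha
        nth_rewrite 1 [← h2]
        rw [← rmul, inv_mul_cancel, rone] }
  have hu : ∀ a, uu a ∈ H := fun a => hv.1 a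
  have ht : tt ∈ H := hv.2
  have hη : eta ∈ H := he
  have hW : ww ∈ H := hw
  have hL : ∀ a : ZMod 13, ww * (uu a * ww) ∈ H := fun a => H.mul_mem hW (H.mul_mem (hu a) hW)
  -- torus
  have htor : ∀ c : ZMod 13, c ≠ 0 → ∀ g : Q, g.1 0 0 = c → g.1 0 1 = 0 → g.1 1 0 = 0 → g ∈ H := by
    intro c hc g h00 h01 h10
    have h2 : g = tt ^ tI c⁻¹ * eta ^ tJ c⁻¹ := by
      have hdet := Matrix.SpecialLinearGroup.det_coe g
      rw [Matrix.det_fin_two, h00, h01, h10, zero_mul, sub_zero] at hdet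
      have h11 : g.1 1 1 = c⁻¹ := by
        have h13 : Fact (Nat.Prime 13) := ⟨by norm_num⟩
        exact eq_inv_of_mul_eq_one_right hdet
      have h3 : ∀ c : ZMod 13, c ≠ 0 → (tt ^ tI c⁻¹ * eta ^ tJ c⁻¹).1 = !![c, 0; 0, c⁻¹] := by decide +kernel
      apply Subtype.ext
      rw [h3 c hc]
      ext i j
      fin_cases i <;> fin_cases j
      · exact h00
      · exact h01
      · exact h10
      · exact h11
    rw [h2]
    exact H.mul_mem (H.pow_mem ht _) (H.pow_mem hη _)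
  have h13 : Fact (Nat.Prime 13) := ⟨by norm_num⟩
  suffices h : g ∈ H from h
  -- `g 1 0 = 0` or not
  have main : ∀ g : Q, g.1 1 0 = 0 → g ∈ H := by
    intro g h10
    have hdet := Matrix.SpecialLinearGroup.det_coe g
    rw [Matrix.det_fin_two, h10, mul_zero, sub_zero] at hdet
    have h00 : g.1 0 0 ≠ 0 := fun h => by rw [h, zero_mul] at hdet; exact zero_ne_one hdet
    have h2 : g * uu (-((g.1 0 0)⁻¹ * g.1 0 1)) ∈ H := by
      refine htor (g.1 0 0) h00 _ ?_ ?_ ?_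
      · show (g.1 * !![1, -((g.1 0 0)⁻¹ * g.1 0 1); 0, 1]) 0 0 = _
        rw [Matrix.mul_apply, Fin.sum_univ_two]
        simp
      · show (g.1 * !![1, -((g.1 0 0)⁻¹ * g.1 0 1); 0, 1]) 0 1 = _
        rw [Matrix.mul_apply, Fin.sum_univ_two]
        simp [h00]
      · show (g.1 * !![1, -((g.1 0 0)⁻¹ * g.1 0 1); 0, 1]) 1 0 = _
        rw [Matrix.mul_apply, Fin.sum_univ_two]
        simp [h10]
    exact (H.mul_mem_cancel_right (hu _)).1 h2
  by_cases h10 : g.1 1 0 = 0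
  · exact main g h10
  · -- `ww * uu x * g` has lower left entry zero
    have h2 : ww * uu (-(g.1 0 0 * (g.1 1 0)⁻¹)) * g ∈ H := by
      apply main
      show (ww.1 * (uu (-(g.1 0 0 * (g.1 1 0)⁻¹))).1 * g.1) 1 0 = 0
      rw [Matrix.mul_apply, Fin.sum_univ_two]
      simp [ww, uu, Matrix.mul_apply, Fin.sum_univ_two, h10]
    exact (H.mul_mem_cancel_left (H.mul_mem hW (hu _))).1 h2

/-! ### the form -/

section form

variable {B : LinearMap.BilinForm (ZMod 3) V}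

theorem B_inv (hB : ∀ g v v', B (ρ g v) (ρ g v') = B v v') (g : Q) (v v' : V) : B (ρ g v) v' = B v (ρ g⁻¹ v') := by
  rw [← hB g v (ρ g⁻¹ v'), ← rmul, mul_inv_cancel, rone]

/-- `B (e_U x) v = B x v` -/
theorem B_ss (hB : ∀ g v v', B (ρ g v) (ρ g v') = B v v') {v : V} (hv : ∀ a, ρ (uu a) v = v) (x : V) :
    B (ss ρ x) v = B x v := by
  rw [ss_apply, map_sum, LinearMap.sum_apply]
  have h : ∀ a ∈ (Finset.univ : Finset (ZMod 13)), B (ρ (uu a) x) v = B x v := by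
    intro a _
    nth_rewrite 1 [← hv a]
    exact hB _ _ _
  rw [Finset.sum_congr rfl h, Finset.sum_const, Finset.card_univ, ZMod.card, nsmul_eq_mul]
  have : ((13 : ℕ) : ZMod 3) = 1 := by decide
  rw [this, one_mul]

theorem B_eta (hB : ∀ g v v', B (ρ g v) (ρ g v') = B v v') (u v : V) : B u (ρ eta v) = B (ρ eta (ρ eta u)) v := by
  rw [← hB eta (ρ eta (ρ eta u)) v, eee]

theorem B_om (h1 : ρ (-1) = 1) (hs : B.IsSymm) (hB : ∀ g v v', B (ρ g v) (ρ g v') = B v v') {u v : V}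
    (hu : u ∈ WW ρ) (hv : v ∈ WW ρ) : B (om ρ u) v = B u (om ρ v) := by
  rw [om_apply, B_ss hB hv.1, hs.eq, om_apply, hs.eq u, B_ss hB hu.1, ← hB ww (ρ ww v) u, ← rmul ρ ww ww, ww_ww, h1]
  rfl

theorem B_sg (h1 : ρ (-1) = 1) (hs : B.IsSymm) (hB : ∀ g v v', B (ρ g v) (ρ g v') = B v v') {u v : V}
    (hu : u ∈ WW ρ) (hv : v ∈ WW ρ) : B (sg ρ u) v = B u (sg ρ v) := by
  rw [sg_apply, sg_apply]
  simp only [map_add, LinearMap.add_apply, B_om h1 hs hB hu hv, B_eta hB, eee]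
  ring

theorem B_dd (hB : ∀ g v v', B (ρ g v) (ρ g v') = B v v') (u v : V) : B u (dd ρ v) = - B (dd ρ u) v := by
  rw [dd_apply, dd_apply]
  simp only [map_sub, LinearMap.sub_apply, B_eta hB, eee]
  ring

/-- the projection on `WW` -/
def pp (ρ : Representation (ZMod 3) Q V) : V →ₗ[ZMod 3] V := -(ss ρ + ρ tt ∘ₗ ss ρ)

theorem pp_apply (v : V) : pp ρ v = -(ss ρ v + ρ tt (ss ρ v)) := rfl

theorem pp_mem (h1 : ρ (-1) = 1) (v : V) : pp ρ v ∈ WW ρ := by
  have htt : ∀ x, ρ tt (ρ tt x) = x := by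
    intro x
    have : tt * tt = -1 := by decide +kernel
    rw [← rmul, this, h1]
    rfl
  rw [pp_apply]
  refine (WW ρ).neg_mem ⟨fun a => ?_, ?_⟩
  · have h : uu a * tt = tt * uu (-a) := by revert a; decide +kernel
    rw [map_add, uu_ss, ← rmul, h, rmul, uu_ss]
  · rw [map_add, htt, add_comm]

theorem B_pp (hs : B.IsSymm) (hB : ∀ g v v', B (ρ g v) (ρ g v') = B v v') {u : V}
    (hu : u ∈ WW ρ) (x : V) : B u (pp ρ x) = B u x := by
  rw [pp_apply, map_neg, map_add, hs.eq u, B_ss hB hu.1, hs.eq u]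
  have h2 : B (ρ tt (ss ρ x)) u = B (ss ρ x) u := by
    nth_rewrite 1 [← hu.2]
    exact hB _ _ _
  rw [h2, B_ss hB hu.1, hs.eq u x]
  have : ∀ c : ZMod 3, -(c + c) = c := by decide
  exact this _

/-- **Task R1.** -/
theorem r1 : R1 := by
  intro V _ _ _ ρ h1 B hBn hs hB
  have horth : ∀ u ∈ XX ρ (-1), ∀ v ∈ XX ρ 1, B u v = 0 := by
    intro u hu v hv
    obtain ⟨hu1, hu2⟩ := mem_XX.1 hu
    obtain ⟨hv1, hv2⟩ := mem_XX.1 hv
    have h3 := B_sg h1 hs hB hu1 hv1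
    rw [hu2, hv2, one_smul, map_smul, LinearMap.smul_apply, smul_eq_mul] at h3
    have : ∀ c : ZMod 3, -1 * c = c → c = 0 := by decide
    exact this _ h3
  have key := ineq B hBn hs (XX ρ 1) (XX ρ (-1)) (dd ρ) (fun v hv => dd_XX hv)
    (fun v hv => by have := dd_XX hv; rwa [neg_neg] at this) (fun v _ => ddd v)
    (fun u _ v _ => B_dd hB u v) (by
      intro u hu hu0
      obtain ⟨hu1, hu2⟩ := mem_XX.1 hu
      have h3 : ∀ x, B u x = 0 := by
        intro x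
        rw [← B_pp hs hB hu1 x]
        have hw := pp_mem h1 x
        set w := pp ρ x with hwdef
        -- `w = 2 (w + sg w) + 2 (w - sg w)`
        have e1 : w = (2 : ZMod 3) • (w + sg ρ w) + (2 : ZMod 3) • (w - sg ρ w) :=
          m3 (by match_scalars <;> decide)
        have m1 : w + sg ρ w ∈ XX ρ 1 := mem_XX.2 ⟨(WW ρ).add_mem hw (sg_mem hw), by
          rw [map_add, sg_sg h1 hw, one_smul, add_comm]⟩
        have m2 : w - sg ρ w ∈ XX ρ (-1) := mem_XX.2 ⟨(WW ρ).sub_mem hw (sg_mem hw), by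
          rw [map_sub, sg_sg h1 hw, neg_smul, one_smul, neg_sub]⟩
        rw [e1, map_add, map_smul, map_smul, horth u hu _ m1, hu0 _ m2, smul_zero, add_zero]
      exact (LinearMap.BilinForm.Nondegenerate.ker_eq_bot hBn ▸ (Submodule.mem_bot (ZMod 3)).1)
        (show u ∈ LinearMap.ker B from LinearMap.mem_ker.2 (LinearMap.ext h3)))
  have hle : finrank (ZMod 3) ↥(XX ρ 1 ⊓ LinearMap.ker (dd ρ)) ≤ finrank (ZMod 3) (fixP ρ fun _ => True) := by
    apply Submodule.finrank_mono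
    rintro v ⟨hv, hv0⟩
    obtain ⟨hv1, hv2⟩ := mem_XX.1 hv
    have h2 : ρ eta v = ρ eta (ρ eta v) := by
      have := LinearMap.mem_ker.1 hv0
      rw [dd_apply, sub_eq_zero] at this
      exact this
    have h3 : ρ eta v = v := by
      have h4 := congrArg (fun x => ρ eta (ρ eta x)) h2
      simp only [eee] at h4
      exact h4.symm
    have h5 : om ρ v = v := by
      rw [sg_apply, h3, h3, one_smul] at hv2
      have h6 : om ρ v = om ρ v + v + v + v := m3 (by match_scalars <;> decide)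
      rw [h6, hv2]
    intro g _
    exact fix_all h1 hv1 h3 h5 g
  omega

end form

end Cfsg.Agent.H530.L13
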